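import Cfsg.Agent.Lib.KnownSimple.RegUnip.Main

/-!
# Products of two conjugates of the regular unipotent Jordan block

Every non-scalar matrix of determinant one and degree at least three, over a field with at least four
elements, is a product of two conjugates of the regular unipotent Jordan block.
-/

set_option autoImplicit false

open Module LinearMap

namespace CfsgLib.KnownSimple.RegUnip

variable {K : Type*} [Field K] {V : Type*} [AddCommGroup V] [Module K V]

/-- A regular unipotent map of degree `m`. -/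
def IsRegular (m : ℕ) (L : End K V) : Prop := (L - 1) ^ (m + 1) = 0 ∧ (L - 1) ^ m ≠ 0

lemma Factors.isRegular {m : ℕ} {T : End K V} {x : V} {y : Dual K V} (h : Factors m T x y) :
    ∃ L U : End K V, T = L * U ∧ IsRegular m L ∧ IsRegular m U := by
  obtain ⟨L, U, hLU, hL, hU, hx, u, hu⟩ := h
  exact ⟨L, U, hLU, ⟨hL, fun h => hx (by simp [h])⟩, ⟨hU, fun h => hu (by simp [h])⟩⟩

lemma exists_cycle [FiniteDimensional K V] {m : ℕ} (hm : 2 ≤ m) (hn : finrank K V = m + 1)
    {ψ : Dual K V} {d : V} (hd : d ≠ 0) (hψd : ψ d = 0) (hψ : ψ ≠ 0) :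
    ∃ M : End K V, M ^ (m + 1) = 0 ∧ M ^ m = ψ.smulRight d := by
  obtain ⟨w, hw⟩ : ∃ w, ψ w = 1 := by
    obtain ⟨u, hu⟩ : ∃ u, ψ u ≠ 0 := by
      by_contra! h
      exact hψ (LinearMap.ext h)
    exact ⟨(ψ u)⁻¹ • u, by simp [hu]⟩
  set d' : ker ψ := ⟨d, hψd⟩ with hd'def
  have hd' : d' ≠ 0 := fun h => hd (congrArg Subtype.val h)
  obtain ⟨N, hN⟩ := Submodule.exists_isCompl (K ∙ d')
  have hk := finrank_ker_phi hw
  have hNr : finrank K N = m - 1 := by
    have := Submodule.finrank_add_eq_of_isCompl hN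
    rw [finrank_span_singleton hd'] at this
    omega
  obtain ⟨j, rfl⟩ : ∃ j, m = j + 1 := ⟨m - 1, by omega⟩
  let c := Module.finBasisOfFinrankEq K N (show finrank K N = j by omega)
  have hcons : LinearIndependent K (Fin.cons d' (fun i => (c i : ker ψ)) : Fin (j + 1) → ker ψ) := by
    rw [linearIndependent_fin_cons]
    refine ⟨c.linearIndependent.map' N.subtype (Submodule.ker_subtype N), fun h => hd' ?_⟩
    have hle : Submodule.span K (Set.range fun i => (c i : ker ψ)) ≤ N :=
      Submodule.span_le.2 (Set.range_subset_iff.2 fun i => (c i).2)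
    exact (Submodule.mem_bot K).1 (hN.inf_eq_bot ▸ ⟨Submodule.mem_span_singleton_self d', hle h⟩)
  set f : Fin (j + 1) → ker ψ := Fin.cons d' (fun i => (c i : ker ψ)) with hf
  set g : Fin (j + 2) → V := Fin.snoc (fun i => (f i : V)) w with hg
  have hli : LinearIndependent K g := by
    rw [hg, linearIndependent_fin_snoc]
    refine ⟨hcons.map' (ker ψ).subtype (Submodule.ker_subtype _), fun h => ?_⟩
    have hle : Submodule.span K (Set.range fun i => (f i : V)) ≤ ker ψ :=
      Submodule.span_le.2 (Set.range_subset_iff.2 fun i => (f i).2)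
    exact one_ne_zero (hw ▸ mem_ker.1 (hle h))
  let b : Basis (Fin (j + 2)) K V :=
    basisOfLinearIndependentOfCardEqFinrank hli (by simp [hn])
  have hb : ∀ i, b i = g i := fun i => congrFun (coe_basisOfLinearIndependentOfCardEqFinrank hli _) i
  let e : ℕ → V := fun i => if h : i < j + 2 then b ⟨i, h⟩ else 0
  let M : End K V := b.constr K fun i => if (i : ℕ) = 0 then 0 else e ((i : ℕ) - 1)
  have hM : ∀ i, i < j + 2 → M (e i) = if i = 0 then 0 else e (i - 1) := fun i hi => by
    rw [show e i = b ⟨i, hi⟩ by simp [e, hi]]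
    exact b.constr_basis K _ _
  have hpow : ∀ k i, i < j + 2 → (M ^ k) (e i) = if k ≤ i then e (i - k) else 0 := by
    intro k
    induction k with
    | zero => intro i hi; simp
    | succ k ih =>
      intro i hi
      rw [pow_succ', Module.End.mul_apply, ih i hi]
      by_cases h : k ≤ i
      · rw [if_pos h, hM _ (by omega)]
        by_cases h2 : k + 1 ≤ i
        · rw [if_pos h2, if_neg (by omega), show i - k - 1 = i - (k + 1) by omega]
        · rw [if_neg h2, if_pos (by omega)]
      · rw [if_neg h, if_neg (by omega), map_zero]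
  have hbe : ∀ i : Fin (j + 2), b i = e i := fun i => by simp [e]
  refine ⟨M, b.ext fun i => ?_, b.ext fun i => ?_⟩
  · rw [hbe, hpow _ _ i.2, if_neg (by omega), LinearMap.zero_apply]
  · rw [hbe, hpow _ _ i.2, LinearMap.smulRight_apply]
    have he0 : e 0 = d := by
      rw [← Fin.val_zero (j + 2), ← hbe, hb, hg, ← Fin.castSucc_zero, Fin.snoc_castSucc, hf,
        Fin.cons_zero]
    rcases Fin.eq_castSucc_or_eq_last i with ⟨l, rfl⟩ | rfl
    · rw [if_neg (by simp; omega), ← hbe, hb, hg, Fin.snoc_castSucc, mem_ker.1 (f l).2, zero_smul]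
    · rw [← hbe, hb, hg, Fin.snoc_last, hw, one_smul, Fin.val_last, if_pos le_rfl, Nat.sub_self, he0]

lemma regular_of_rank_one [FiniteDimensional K V] {m : ℕ} (hm : 2 ≤ m) (hn : finrank K V = m + 1)
    {T : End K V} (hdet : LinearMap.det T = 1) (hr : finrank K (range (T - 1)) = 1) :
    ∃ L U : End K V, T = L * U ∧ IsRegular m L ∧ IsRegular m U := by
  obtain ⟨⟨d, hdmem⟩, hd, hspan⟩ := finrank_eq_one_iff'.1 hr
  have hd0 : d ≠ 0 := fun h => hd (Subtype.ext h)
  obtain ⟨f, hf⟩ : ∃ f : Dual K V, f d = 1 := by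
    obtain ⟨f, hf⟩ : ∃ f : Dual K V, f d ≠ 0 := by
      by_contra! h
      exact hd0 ((Module.forall_dual_apply_eq_zero_iff K d).1 h)
    exact ⟨(f d)⁻¹ • f, by simp [hf]⟩
  set ψ : Dual K V := f ∘ₗ (T - 1) with hψ
  have hT : T - 1 = ψ.smulRight d := LinearMap.ext fun u => by
    obtain ⟨c, hc⟩ := hspan ⟨(T - 1) u, mem_range_self _ u⟩
    have hc' : c • d = (T - 1) u := congrArg Subtype.val hc
    rw [LinearMap.smulRight_apply, hψ, LinearMap.comp_apply, ← hc', map_smul, hf, smul_eq_mul,
      mul_one]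
  have hψd : ψ d = 0 := by
    have htr : T = LinearMap.transvection ψ d := LinearMap.ext fun u => by
      have := LinearMap.congr_fun hT u
      simp only [LinearMap.sub_apply, Module.End.one_apply, LinearMap.smulRight_apply] at this
      rw [LinearMap.transvection.apply, ← this, add_sub_cancel]
    rw [htr, LinearMap.transvection.det] at hdet
    linear_combination hdet
  have hψ0 : ψ ≠ 0 := fun h => by
    rw [h] at hT
    obtain ⟨u, hu⟩ := hdmem
    exact hd0 (by rw [← hu, hT]; simp)
  obtain ⟨M, hM1, hMm⟩ := exists_cycle hm hn hd0 hψd hψ0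
  have hMne : M ^ m ≠ 0 := by
    rw [hMm, ← hT]
    intro h
    rw [h, range_zero, finrank_bot] at hr
    omega
  have hnil : IsNilpotent M := ⟨m + 1, hM1⟩
  obtain ⟨G, hG⟩ := hnil.isUnit_one_add
  have hcG : Commute M (↑G⁻¹ : End K V) := by
    refine Commute.units_inv_right ?_
    rw [hG]
    exact (Commute.one_right M).add_right (Commute.refl M)
  have hnil2 : IsNilpotent (M ^ (m - 1)) := hnil.pow_of_pos (by omega)
  have hR : IsUnit ((M ^ (m - 1) - 1) * (↑G⁻¹ : End K V)) := hnil2.isUnit_sub_one.mul G⁻¹.isUnit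
  have hcR : Commute M ((M ^ (m - 1) - 1) * (↑G⁻¹ : End K V)) :=
    (((Commute.refl M).pow_right _).sub_right (Commute.one_right M)).mul_right hcG
  have hTM : T = 1 + M ^ m := by rw [hMm, ← hT]; abel
  have hL : T * (↑G⁻¹ : End K V) - 1 = M * ((M ^ (m - 1) - 1) * (↑G⁻¹ : End K V)) := by
    have h1 : (1 : End K V) = (1 + M) * (↑G⁻¹ : End K V) := by rw [← hG, Units.mul_inv]
    rw [← mul_assoc, mul_sub, ← pow_succ', show m - 1 + 1 = m by omega, mul_one]
    nth_rewrite 1 [h1]
    rw [← sub_mul, hTM]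
    congr 1
    abel
  refine ⟨T * (↑G⁻¹ : End K V), 1 + M, ?_, ⟨?_, ?_⟩, ?_, ?_⟩
  · rw [← hG, mul_assoc, Units.inv_mul, mul_one]
  · rw [hL, hcR.mul_pow, hM1, zero_mul]
  · rw [hL, hcR.mul_pow]
    exact fun h => hMne ((hR.pow m).mul_left_eq_zero.1 h)
  · rw [add_sub_cancel_left]; exact hM1
  · rw [add_sub_cancel_left]; exact hMne

lemma exists_regular_factors [FiniteDimensional K V] (hK : HasMoreThan K 3)
    (hK4 : (2 : K) ≠ 0 → HasMoreThan K 4) {m : ℕ} (hm : 2 ≤ m) (hn : finrank K V = m + 1)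
    {T : End K V} (hdet : LinearMap.det T = 1) (hns : ¬ ∃ c : K, T = c • 1) :
    ∃ L U : End K V, T = L * U ∧ IsRegular m L ∧ IsRegular m U := by
  by_cases hr : 2 ≤ finrank K (range (T - 1))
  · have : Nontrivial V := Module.nontrivial_of_finrank_pos (R := K) (by omega)
    obtain ⟨x, hx⟩ := exists_ne (0 : V)
    obtain ⟨y, hy⟩ := exists_ne (0 : Dual K V)
    exact (factors hK hK4 m hn T hdet (fun _ => ⟨hns, hr⟩) x y hx hy).isRegular
  · rcases Nat.eq_zero_or_pos (finrank K (range (T - 1))) with h0 | h0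
    · refine absurd ⟨1, ?_⟩ hns
      rw [one_smul]
      exact sub_eq_zero.1 (range_eq_bot.1 (Submodule.finrank_eq_zero.1 h0))
    · exact regular_of_rank_one hm hn hdet (by omega)

/-- A regular unipotent matrix is a conjugate of the Jordan block. -/
lemma exists_conj_jordan {m : ℕ} (J : GL (Fin (m + 1)) K)
    (hJ : ∀ i j : Fin (m + 1), (J : Matrix (Fin (m + 1)) (Fin (m + 1)) K) i j =
      if i = j then 1 else if j.val = i.val + 1 then 1 else 0)
    (A : Matrix (Fin (m + 1)) (Fin (m + 1)) K) (hA : IsRegular m (Matrix.toLinAlgEquiv' A)) :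
    ∃ x : GL (Fin (m + 1)) K,
      ((x * J * x⁻¹ : GL (Fin (m + 1)) K) : Matrix (Fin (m + 1)) (Fin (m + 1)) K) = A := by
  obtain ⟨hN0, hNm⟩ := hA
  set N : End K (Fin (m + 1) → K) := Matrix.toLinAlgEquiv' A - 1 with hN
  obtain ⟨u, hu⟩ : ∃ u, (N ^ m) u ≠ 0 := by
    by_contra! h
    exact hNm (LinearMap.ext h)
  have hli : LinearIndependent K (fun i : Fin (m + 1) => (N ^ (m - i.val)) u) := by
    rw [Fintype.linearIndependent_iff]
    intro g hg
    have key : ∀ k, ∀ i : Fin (m + 1), m - i.val = k → g i = 0 := by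
      intro k
      induction k using Nat.strong_induction_on with
      | _ k ih =>
        intro i hi
        have h1 := congrArg (N ^ i.val) hg
        rw [map_sum, map_zero, Finset.sum_eq_single i] at h1
        · rw [map_smul, ← Module.End.mul_apply, ← pow_add, show i.val + (m - i.val) = m by omega,
            smul_eq_zero] at h1
          exact h1.resolve_right hu
        · intro l _ hl
          rw [map_smul, ← Module.End.mul_apply, ← pow_add]
          rcases lt_trichotomy l.val i.val with h | h | h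
          · rw [pow_eq_zero_of_le (by omega : m + 1 ≤ i.val + (m - l.val)) hN0]
            simp
          · exact absurd (Fin.ext h) hl
          · rw [ih (m - l.val) (by omega) l rfl, zero_smul]
        · simp
    exact fun i => key _ i rfl
  set P : Matrix (Fin (m + 1)) (Fin (m + 1)) K :=
    Matrix.of fun r i => (N ^ (m - i.val)) u r with hP
  have hunit : IsUnit P := Matrix.linearIndependent_cols_iff_isUnit.1 (by
    convert hli using 1
    funext i r
    simp [hP, Matrix.col])
  have hcomm : A * P = P * (J : Matrix (Fin (m + 1)) (Fin (m + 1)) K) := by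
    ext r i
    have hl : (A * P) r i = ((N ^ (m - i.val)) u + N ((N ^ (m - i.val)) u)) r := by
      rw [show (N ^ (m - i.val)) u + N ((N ^ (m - i.val)) u) = A.mulVec ((N ^ (m - i.val)) u) by
        simp [hN, Matrix.toLinAlgEquiv'_apply]]
      simp [hP, Matrix.mul_apply, Matrix.mulVec, dotProduct]
    rw [hl, Matrix.mul_apply, Pi.add_apply, ← Module.End.mul_apply, ← pow_succ']
    rcases Fin.eq_zero_or_eq_succ i with rfl | ⟨l, rfl⟩
    · rw [Finset.sum_eq_single 0]
      · simp [hP, hJ, hN0]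
      · intro b _ hb
        simp [hJ, hb]
      · simp
    · rw [Finset.sum_eq_add l.succ l.castSucc]
      · simp [hP, hJ, Fin.ext_iff, show m - (l.val + 1) + 1 = m - l.val by omega]
      · simp [Fin.ext_iff]
      · intro b _ hb
        simp only [hJ, hP, Matrix.of_apply]
        rw [if_neg hb.1, if_neg ?_, mul_zero]
        intro h
        exact hb.2 (Fin.ext (by simp at h ⊢; omega))
      · simp
      · simp
  obtain ⟨x, hx⟩ := hunit
  refine ⟨x, ?_⟩
  rw [← hx] at hcomm
  rw [Units.val_mul, Units.val_mul, ← hcomm, mul_assoc, Units.mul_inv, mul_one]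

theorem exists_two_conjugates (hK : 4 ≤ Cardinal.mk K) (n : ℕ) (hn : 3 ≤ n) (J g : GL (Fin n) K)
    (hJ : ∀ i j : Fin n, (J : Matrix (Fin n) (Fin n) K) i j =
      if i = j then 1 else if j.val = i.val + 1 then 1 else 0)
    (hg : ¬ ∃ c : K, (g : Matrix (Fin n) (Fin n) K) = c • (1 : Matrix (Fin n) (Fin n) K))
    (hdet : (g : Matrix (Fin n) (Fin n) K).det = 1) :
    ∃ x y : GL (Fin n) K, g = (x * J * x⁻¹) * (y * J * y⁻¹) := by
  obtain ⟨m, rfl⟩ : ∃ m, n = m + 1 := ⟨n - 1, by omega⟩
  have h3 : HasMoreThan K 3 := hasMoreThan_of_le_mk (by exact_mod_cast hK)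
  have h4 : (2 : K) ≠ 0 → HasMoreThan K 4 := hasMoreThan_four (by exact_mod_cast hK)
  let φ : Matrix (Fin (m + 1)) (Fin (m + 1)) K ≃ₐ[K] End K (Fin (m + 1) → K) :=
    Matrix.toLinAlgEquiv'
  obtain ⟨L, U, hLU, hL, hU⟩ := exists_regular_factors h3 h4 (by omega : 2 ≤ m) (finrank_fin_fun K)
    (T := φ (g : Matrix (Fin (m + 1)) (Fin (m + 1)) K))
    (by
      rw [show φ (g : Matrix (Fin (m + 1)) (Fin (m + 1)) K) =
        Matrix.toLin' (g : Matrix (Fin (m + 1)) (Fin (m + 1)) K) from rfl, LinearMap.det_toLin',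
        hdet])
    (fun ⟨c, hc⟩ => hg ⟨c, φ.injective (by rw [hc, map_smul, map_one])⟩)
  obtain ⟨x, hx⟩ := exists_conj_jordan J hJ (φ.symm L) (by rwa [φ.apply_symm_apply])
  obtain ⟨y, hy⟩ := exists_conj_jordan J hJ (φ.symm U) (by rwa [φ.apply_symm_apply])
  refine ⟨x, y, Units.ext ?_⟩
  rw [Units.val_mul, hx, hy, ← map_mul, ← hLU, φ.symm_apply_apply]

end CfsgLib.KnownSimple.RegUnip
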